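import Cfsg.Agent.H35.CentralAutomizer.Basic

set_option autoImplicit false

/-!
A minimal group in which the normalizer of `J(S)` controls less than `G` on `T ≤ Z(S)`:
subgroups containing an abelian subgroup of `S` of largest order outside the centraliser of the
normal closure of `T` behave as in a group with a unique maximal subgroup over `S`.
-/

namespace Cfsg.Agent.H35.CentralAutomizer

open Subgroup
open scoped Pointwise

variable {G : Type*} [Group G]

/-- The setting: `T` central in a Sylow subgroup `S` and inside a normal abelian `p`-subgroup `V`,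
`N(J(S))` normalises `T`, `G` does not, and no proper subgroup satisfies the same conditions. -/
structure MinSetup (p : ℕ) (S T V : Subgroup G) : Prop where
  hS : IsMaxPIn p ⊤ S
  hTS : T ≤ S
  hTC : S ≤ centralizer (T : Set G)
  hTV : T ≤ V
  hVn : V.Normal
  hVc : ∀ a ∈ V, ∀ b ∈ V, Commute a b
  hVp : IsPGroup p V
  hJ : normalizer (Cfsg.thompsonSubgroupAOf S : Set G) ≤ normalizer (T : Set G)
  hne : normalizer (T : Set G) ≠ ⊤
  hmin : ∀ K : Subgroup G, K ≠ ⊤ → ∀ S' : Subgroup G, IsMaxPIn p K S' → T ≤ S' →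
    S' ≤ centralizer (T : Set G) →
    K ⊓ normalizer (Cfsg.thompsonSubgroupAOf S' : Set G) ≤ normalizer (T : Set G) →
    K ≤ normalizer (T : Set G)

/-- The kernel of the action on the normal closure of `T`. -/
def ker0 (T : Subgroup G) : Subgroup G := centralizer (normalClosure (T : Set G) : Set G)

/-- `R` contains an abelian subgroup of `S` of largest order acting nontrivially. -/
def Big (S T R : Subgroup G) : Prop := ∃ A, H72.IsMaxAb S A ∧ A ≤ R ∧ ¬A ≤ ker0 T

instance ker0_normal (T : Subgroup G) : (ker0 T).Normal := normal_centralizer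

theorem ker0_le_normalizer (T : Subgroup G) : ker0 T ≤ normalizer (T : Set G) :=
  (centralizer_le (by intro x hx; exact subset_normalClosure hx)).trans (centralizer_le_normalizer _)

theorem Big.mono {S T R R' : Subgroup G} (h : Big S T R) (hle : R ≤ R') : Big S T R' :=
  let ⟨A, h1, h2, h3⟩ := h
  ⟨A, h1, h2.trans hle, h3⟩

theorem isMaxAb_cj {S A : Subgroup G} {g : G} (hA : H72.IsMaxAb S A) (h : cj g A ≤ S) :
    H72.IsMaxAb S (cj g A) := by
  refine ⟨h, ?_, fun B hB hc => ?_⟩
  · rintro _ ⟨a, ha, rfl⟩ _ ⟨b, hb, rfl⟩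
    exact (hA.2.1 a ha b hb).map _
  · rw [card_cj]
    exact hA.2.2 B hB hc

theorem Big.cj {S T R : Subgroup G} {g : G} (h : Big S T R) (hle : cj g R ≤ S) :
    Big S T (cj g R) := by
  obtain ⟨A, hA, hAR, hAC⟩ := h
  refine ⟨_, isMaxAb_cj hA ((cj_mono g hAR).trans hle), cj_mono g hAR, fun hc => hAC fun a ha => ?_⟩
  have := (ker0_normal T).conj_mem _ (hc (conj_mem_cj ha)) g⁻¹
  simpa [mul_assoc] using this

theorem Big.thompson {S T R : Subgroup G} (h : Big S T R) (hRS : R ≤ S) :
    Big S T (Cfsg.thompsonSubgroupAOf R) := by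
  obtain ⟨A, hA, hAR, hAC⟩ := h
  refine ⟨A, hA, H72.IsMaxAb.le_thompson ⟨hAR, hA.2.1, fun B hB => hA.2.2 B (hB.trans hRS)⟩, hAC⟩

variable {p : ℕ} [hp : Fact p.Prime] [Finite G] {S T V : Subgroup G} (h : MinSetup p S T V)

include h

omit hp [Finite G] in
theorem MinSetup.le_M : S ≤ normalizer (T : Set G) := h.hTC.trans (centralizer_le_normalizer _)

omit hp [Finite G] in
theorem MinSetup.nc_le : normalClosure (T : Set G) ≤ V := by
  haveI := h.hVn
  exact normalClosure_le_normal h.hTV

omit hp [Finite G] in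
theorem MinSetup.nc_le_ker0 : normalClosure (T : Set G) ≤ ker0 T := fun x hx =>
  mem_centralizer_iff.2 fun y hy => (h.hVc y (h.nc_le hy) x (h.nc_le hx)).eq

omit hp [Finite G] in
theorem MinSetup.T_le_ker0 : T ≤ ker0 T :=
  (show T ≤ normalClosure (T : Set G) from fun _ hx => subset_normalClosure hx).trans h.nc_le_ker0

omit hp in
theorem MinSetup.normalizer_le : normalizer (S : Set G) ≤ normalizer (T : Set G) :=
  (H72.normalizer_le_normalizer_thompsonSubgroupAOf S).trans h.hJ

theorem MinSetup.maxP_M : IsMaxPIn p (normalizer (T : Set G)) S :=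
  ⟨h.le_M, h.hS.2.1, fun R hR hle _ => h.hS.2.2 R hR hle le_top⟩

/-- A normal subgroup over the kernel that is a `p`-group modulo it is the kernel. -/
theorem MinSetup.normal_eq_ker0 {K : Subgroup G} [hK : K.Normal] (hCK : ker0 T ≤ K)
    (hK' : K ≤ (S ⊓ K) ⊔ ker0 T) : K = ker0 T := by
  set C := ker0 T with hC
  set P := S ⊓ K
  have htop : normalizer (P : Set G) ⊔ C = ⊤ := by
    rw [eq_top_iff, ← h.hS.normalizer_sup_eq_top K]
    refine sup_le le_sup_left (hK'.trans (sup_le ?_ le_sup_right))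
    exact le_normalizer.trans le_sup_left
  refine le_antisymm (hK'.trans (sup_le ?_ le_rfl)) hCK
  intro x hx
  rw [hC, ker0, normalClosure, centralizer_closure, mem_centralizer_iff]
  rintro y hy
  obtain ⟨t, ht, hty⟩ := Group.mem_conjugatesOfSet_iff.1 hy
  obtain ⟨g, rfl⟩ := isConj_iff.1 hty
  have hg : g ∈ ((normalizer (P : Set G) : Subgroup G) : Set G) * (C : Set G) := by
    rw [← mul_normal, htop]; trivial
  obtain ⟨n, hn, c, hc, rfl⟩ := hg
  have hct : c * t * c⁻¹ = t := by
    rw [← mem_centralizer_iff.1 hc t (subset_normalClosure ht), mul_inv_cancel_right]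
  have hxP : n⁻¹ * x * n ∈ P := (mem_normalizer_iff.1 hn _).2 (by simpa [mul_assoc] using hx)
  have hcomm := mem_centralizer_iff.1 (h.hTC hxP.1) t ht
  calc n * c * t * (n * c)⁻¹ * x = n * (c * t * c⁻¹) * (n⁻¹ * x * n) * n⁻¹ := by group
    _ = n * (n⁻¹ * x * n * t) * n⁻¹ := by rw [hct, mul_assoc n, hcomm]
    _ = x * (n * (c * t * c⁻¹) * n⁻¹) := by rw [hct]; group
    _ = x * (n * c * t * (n * c)⁻¹) := by group

/-- `J(S)` acts nontrivially. -/
theorem MinSetup.big_top : Big S T S := by
  by_contra hb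
  have hle : Cfsg.thompsonSubgroupAOf S ≤ S ⊓ ker0 T := by
    refine le_inf (H72.thompsonSubgroupAOf_le S) ?_
    rw [H72.thompsonSubgroupAOf_eq]
    exact sSup_le fun A hA => by_contra fun hA' => hb ⟨A, hA, hA.1, hA'⟩
  have heq := H72.thompsonSubgroupAOf_eq_of_le inf_le_left hle
  apply h.hne
  rw [eq_top_iff, ← h.hS.normalizer_sup_eq_top (ker0 T)]
  refine sup_le ?_ (ker0_le_normalizer T)
  refine (H72.normalizer_le_normalizer_thompsonSubgroupAOf _).trans ?_
  rw [heq]
  exact h.hJ

/-- Normalizers of big subgroups of `S` normalise `T`. -/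
theorem MinSetup.normalizer_big_le : ∀ R : Subgroup G, R ≤ S → Big S T R →
    normalizer (R : Set G) ≤ normalizer (T : Set G) := by
  set M := normalizer (T : Set G) with hM
  suffices H : ∀ n : ℕ, ∀ R : Subgroup G, Nat.card S - Nat.card ↥(S ⊓ normalizer (R : Set G)) = n →
      R ≤ S → Big S T R → normalizer (R : Set G) ≤ M from fun R h1 h2 => H _ R rfl h1 h2
  intro n
  induction n using Nat.strong_induction_on with
  | _ n ih =>
  intro R hn hRS hR
  set S' := S ⊓ normalizer (R : Set G) with hS'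
  have hS'S : S' ≤ S := inf_le_left
  have hRS' : R ≤ S' := le_inf hRS le_normalizer
  have hS'p : IsPGroup p S' := h.hS.2.1.to_le hS'S
  have up : ∀ R' : Subgroup G, R' ≤ S → Big S T R' →
      Nat.card S' < Nat.card ↥(S ⊓ normalizer (R' : Set G)) → normalizer (R' : Set G) ≤ M := by
    intro R' h1 h2 hlt
    refine ih _ ?_ R' rfl h1 h2
    have : Nat.card ↥(S ⊓ normalizer (R' : Set G)) ≤ Nat.card S := card_le_of_le inf_le_left
    omega
  have hTn : T ≤ normalizer (R : Set G) := by
    refine le_trans ?_ (centralizer_le_normalizer _)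
    rw [le_centralizer_iff]
    exact hRS.trans h.hTC
  have hTS' : T ≤ S' := le_inf h.hTS hTn
  have hJn : normalizer (R : Set G) ⊓ normalizer (Cfsg.thompsonSubgroupAOf S' : Set G) ≤ M := by
    rcases eq_or_lt_of_le hS'S with heq | hlt
    · rw [heq]
      exact inf_le_right.trans h.hJ
    · refine inf_le_right.trans
        (up _ ((H72.thompsonSubgroupAOf_le _).trans hS'S) ((hR.mono hRS').thompson hS'S) ?_)
      exact (card_lt_of_lt (lt_inf_normalizer h.hS.2.1 hlt)).trans_le
        (card_le_of_le (inf_le_inf_left _ (H72.normalizer_le_normalizer_thompsonSubgroupAOf _)))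
  by_cases hmax : IsMaxPIn p (normalizer (R : Set G)) S'
  case neg =>
    obtain ⟨Q, hQ, hle, hQN, hne⟩ : ∃ Q : Subgroup G, IsPGroup p Q ∧ S' ≤ Q ∧
        Q ≤ normalizer (R : Set G) ∧ Q ≠ S' := by
      by_contra hcon
      exact hmax ⟨inf_le_right, hS'p, fun Q h1 h2 h3 =>
        by_contra fun h4 => hcon ⟨Q, h1, h2, h3, h4⟩⟩
    have hlt' := lt_inf_normalizer hQ (lt_of_le_of_ne hle (Ne.symm hne))
    set Q' := Q ⊓ normalizer (S' : Set G)
    have hQ'M : Q' ≤ M := (le_inf (inf_le_left.trans hQN) (inf_le_right.trans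
      (H72.normalizer_le_normalizer_thompsonSubgroupAOf _))).trans hJn
    obtain ⟨m, hm, hmle⟩ := h.maxP_M.exists_conj_le (hQ.to_le inf_le_left) hQ'M
    have hRm : cj m R ≤ S := (cj_mono m (hRS'.trans hlt'.le)).trans hmle
    have hlt2 : Nat.card S' < Nat.card ↥(S ⊓ normalizer (cj m R : Set G)) := by
      refine (card_lt_of_lt hlt').trans_le ?_
      rw [← card_cj m Q']
      refine card_le_of_le (le_inf hmle ?_)
      have : cj m Q' ≤ cj m (Q' ⊓ normalizer (R : Set G)) :=
        cj_mono m (le_inf le_rfl (inf_le_left.trans hQN))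
      rw [cj_inf_normalizer m Q'] at this
      exact this.trans inf_le_right
    have hNm := up _ hRm (hR.cj hRm) hlt2
    intro x hx
    have hx' : m * x * m⁻¹ ∈ normalizer (cj m R : Set G) := by
      rw [cj, ← map_normalizer_eq_of_bijective _ (MulAut.conj m).bijective]
      exact ⟨x, hx, rfl⟩
    have := M.mul_mem (M.mul_mem (M.inv_mem hm) (hNm hx')) hm
    simpa [mul_assoc] using this
  refine h.hmin _ (fun htop => ?_) S' hmax hTS' (hS'S.trans h.hTC) hJn
  haveI hRn : R.Normal := normalizer_eq_top_iff.1 htop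
  obtain ⟨A, hA, hAR, hAC⟩ := hR
  have hK := h.normal_eq_ker0 (K := R ⊔ ker0 T) le_sup_right
    (sup_le ((le_inf hRS le_sup_left).trans le_sup_left) le_sup_right)
  exact hAC (hAR.trans (le_sup_left.trans hK.le))

/-- Big subgroups of `S` control: an element conjugating one into `S` normalises `T`. -/
theorem MinSetup.control : ∀ R : Subgroup G, R ≤ S → Big S T R → ∀ g : G, cj g R ≤ S →
    g ∈ normalizer (T : Set G) := by
  set M := normalizer (T : Set G) with hM
  suffices H : ∀ n : ℕ, ∀ R : Subgroup G, Nat.card S - Nat.card R = n →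
      R ≤ S → Big S T R → ∀ g : G, cj g R ≤ S → g ∈ M from fun R h1 h2 => H _ R rfl h1 h2
  intro n
  induction n using Nat.strong_induction_on with
  | _ n ih =>
  intro R hn hRS hR g hg
  rcases eq_or_lt_of_le hRS with rfl | hlt
  · refine h.normalizer_le (mem_normalizer_iff_map_conj_eq.2 ?_)
    exact eq_of_le_of_card_ge hg (card_cj g R).ge
  set R1 := S ⊓ normalizer (R : Set G)
  have hlt1 : R < R1 := lt_inf_normalizer h.hS.2.1 hlt
  have hgR1 : cj g R1 ≤ M := by
    refine le_trans ?_ (h.normalizer_big_le _ hg (hR.cj hg))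
    rw [cj_inf_normalizer]
    exact inf_le_right
  obtain ⟨m, hm, hmle⟩ :=
    h.maxP_M.exists_conj_le (isPGroup_cj g (h.hS.2.1.to_le inf_le_left)) hgR1
  rw [cj_cj] at hmle
  have hc := card_lt_of_lt hlt1
  have hcS : Nat.card R1 ≤ Nat.card S := card_le_of_le inf_le_left
  have hmg := ih _ (by omega) R1 rfl inf_le_left (hR.mono hlt1.le) (m * g) hmle
  simpa using M.mul_mem (M.inv_mem hm) hmg

theorem MinSetup.mem_of_cj_le {B : Subgroup G} (hB : H72.IsMaxAb S B) (hBC : ¬B ≤ ker0 T) {x : G}
    (hx : cj x B ≤ normalizer (T : Set G)) : x ∈ normalizer (T : Set G) := by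
  obtain ⟨m, hm, hmle⟩ :=
    h.maxP_M.exists_conj_le (isPGroup_cj x (h.hS.2.1.to_le hB.1)) hx
  rw [cj_cj] at hmle
  have hmx := h.control B hB.1 ⟨B, hB, le_rfl, hBC⟩ (m * x) hmle
  simpa using (normalizer (T : Set G)).mul_mem ((normalizer (T : Set G)).inv_mem hm) hmx

/-- Proper subgroups containing `T` and a big member normalise `T`. -/
theorem MinSetup.le_of_big {K B : Subgroup G} (hK : K ≠ ⊤) (hB : H72.IsMaxAb S B)
    (hBC : ¬B ≤ ker0 T) (hBK : B ≤ K) (hTK : T ≤ K) : K ≤ normalizer (T : Set G) := by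
  set M := normalizer (T : Set G) with hM
  have hTp : IsPGroup p T := h.hS.2.1.to_le h.hTS
  have hBp : IsPGroup p B := h.hS.2.1.to_le hB.1
  have hBT : B ≤ centralizer (T : Set G) := hB.1.trans h.hTC
  obtain ⟨S1, hS1, hle⟩ := exists_isMaxPIn (K := K ⊓ M)
    (hBp.to_sup_of_normal_right' hTp (hBT.trans (centralizer_le_normalizer _)))
    (sup_le (le_inf hBK (hB.1.trans h.le_M)) (le_inf hTK le_normalizer))
  obtain ⟨m, hm, hmle⟩ := h.maxP_M.exists_conj_le hS1.2.1 (hS1.1.trans inf_le_right)
  set R := cj m S1 with hRdef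
  have hR : Big S T R := by
    refine (Big.cj ⟨B, hB, le_rfl, hBC⟩ (((cj_mono m) (le_sup_left.trans hle)).trans hmle)).mono ?_
    exact cj_mono m (le_sup_left.trans hle)
  have hback : ∀ X : Subgroup G, normalizer (cj m X : Set G) ≤ M → normalizer (X : Set G) ≤ M := by
    intro X hX x hx
    have hx' : m * x * m⁻¹ ∈ normalizer (cj m X : Set G) := by
      rw [cj, ← map_normalizer_eq_of_bijective _ (MulAut.conj m).bijective]
      exact ⟨x, hx, rfl⟩
    have := M.mul_mem (M.mul_mem (M.inv_mem hm) (hX hx')) hm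
    simpa [mul_assoc] using this
  have hN1 : normalizer (S1 : Set G) ≤ M := hback _ (h.normalizer_big_le _ hmle hR)
  have hNJ : normalizer (Cfsg.thompsonSubgroupAOf S1 : Set G) ≤ M := by
    refine hback _ ?_
    rw [cj, H72.map_thompsonSubgroupAOf _ _ (MulAut.conj m).injective.injOn]
    exact h.normalizer_big_le _ ((H72.thompsonSubgroupAOf_le _).trans hmle) (hR.thompson hmle)
  refine h.hmin K hK S1 ⟨hS1.1.trans inf_le_left, hS1.2.1, fun Q hQ hle' hQK => ?_⟩
    (le_sup_right.trans hle) ?_ (inf_le_right.trans hNJ)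
  · by_contra hne
    have hlt := lt_inf_normalizer hQ (lt_of_le_of_ne hle' (Ne.symm hne))
    exact hlt.ne' (hS1.2.2 _ (hQ.to_le inf_le_left) hlt.le
      (le_inf (inf_le_left.trans hQK) (inf_le_right.trans hN1)))
  · intro x hx
    rw [mem_centralizer_iff]
    intro t ht
    have h1 : m * x * m⁻¹ ∈ S := hmle (conj_mem_cj hx)
    have h2 : m * t * m⁻¹ ∈ T := (mem_normalizer_iff.1 hm t).1 ht
    have h3 := mem_centralizer_iff.1 (h.hTC h1) _ h2
    have := congrArg (fun z => m⁻¹ * z * m) h3
    simpa [mul_assoc] using this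

/-- An element outside `N(T)` generates with a big member and the kernel the whole group. -/
theorem MinSetup.gen {B : Subgroup G} (hB : H72.IsMaxAb S B) (hBC : ¬B ≤ ker0 T) {x : G}
    (hx : x ∉ normalizer (T : Set G)) : B ⊔ cj x B ⊔ ker0 T = ⊤ := by
  by_contra hne
  refine hx (h.mem_of_cj_le hB hBC ?_)
  exact (le_sup_right.trans le_sup_left).trans
    (h.le_of_big hne hB hBC (le_sup_left.trans le_sup_left) (h.T_le_ker0.trans le_sup_right))

theorem MinSetup.le_of_sylow_le {K : Subgroup G} (hK : K ≠ ⊤) (hSK : S ≤ K) :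
    K ≤ normalizer (T : Set G) := by
  obtain ⟨B, hB, -, hBC⟩ := h.big_top
  exact h.le_of_big hK hB hBC (hB.1.trans hSK) (h.hTS.trans hSK)

theorem MinSetup.isCoatom : IsCoatom (normalizer (T : Set G)) :=
  ⟨h.hne, fun K hK => by_contra fun hne => hK.not_ge (h.le_of_sylow_le hne (h.le_M.trans hK.le))⟩

end Cfsg.Agent.H35.CentralAutomizer
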