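import Cfsg.Agent.H35.CentralAutomizer.Minimal
import Cfsg.Agent.H34.Conj

set_option autoImplicit false

/-!
The smallest image of an abelian subgroup of largest order is a quadratic minimal offender on the
normal closure of `T` and on its elements of order dividing `p`.
-/

namespace Cfsg.Agent.H35.CentralAutomizer

open Subgroup
open Cfsg.Agent.H34 (offNum)
open scoped commutatorElement

variable {G : Type*} [Group G]

/-- `A` is an abelian subgroup of `S` of largest order with smallest nontrivial action. -/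
structure IsMinMember (S T A : Subgroup G) : Prop where
  hA : H72.IsMaxAb S A
  hAC : ¬A ≤ ker0 T
  least : ∀ B, H72.IsMaxAb S B → ¬B ≤ ker0 T →
    Nat.card (A.map (QuotientGroup.mk' (ker0 T))) ≤ Nat.card (B.map (QuotientGroup.mk' (ker0 T)))

/-- The elements of order dividing `p` in the normal closure of `T`. -/
def omega (p : ℕ) (T : Subgroup G) : Subgroup G :=
  closure {v | v ∈ normalClosure (T : Set G) ∧ v ^ p = 1}

theorem omega_le (p : ℕ) (T : Subgroup G) : omega p T ≤ normalClosure (T : Set G) :=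
  (closure_le _).2 fun _ hv => hv.1

instance omega_normal (p : ℕ) (T : Subgroup G) : (omega p T).Normal :=
  normalizer_eq_top_iff.1 (eq_top_iff.2 fun g _ => normalizer_le_normalizer_closure _
    (Subgroup.mem_set_normalizer_iff.2 fun x => by
      constructor
      · rintro ⟨h1, h2⟩
        exact ⟨normalClosure_normal.conj_mem x h1 g, by rw [conj_pow, h2, mul_one, mul_inv_cancel]⟩
      · rintro ⟨h1, h2⟩
        refine ⟨?_, conj_eq_one_iff.1 (conj_pow.symm.trans h2)⟩
        simpa [mul_assoc] using normalClosure_normal.conj_mem _ h1 g⁻¹))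

variable {p : ℕ} [hp : Fact p.Prime] [Finite G] {S T V : Subgroup G} (h : MinSetup p S T V)

include h

theorem MinSetup.exists_isMinMember : ∃ A, IsMinMember S T A := by
  obtain ⟨A₀, hA₀, -, hA₀C⟩ := h.big_top
  obtain ⟨A, ⟨hA, hAC⟩, hmin⟩ := Set.exists_min_image {A : Subgroup G | H72.IsMaxAb S A ∧ ¬A ≤ ker0 T}
    (fun A => Nat.card (A.map (QuotientGroup.mk' (ker0 T)))) (Set.toFinite _) ⟨A₀, hA₀, hA₀C⟩
  exact ⟨A, hA, hAC, fun B h1 h2 => hmin B ⟨h1, h2⟩⟩

omit hp [Finite G] in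
theorem MinSetup.mem_omega {v : G} : v ∈ omega p T ↔ v ∈ normalClosure (T : Set G) ∧ v ^ p = 1 := by
  refine ⟨fun hv => ?_, fun hv => subset_closure hv⟩
  induction hv using closure_induction with
  | mem x hx => exact hx
  | one => exact ⟨one_mem _, one_pow _⟩
  | mul x y _ _ hx hy =>
    exact ⟨mul_mem hx.1 hy.1, by
      rw [(h.hVc x (h.nc_le hx.1) y (h.nc_le hy.1)).mul_pow, hx.2, hy.2, one_mul]⟩
  | inv x _ hx => exact ⟨inv_mem hx.1, by rw [inv_pow, hx.2, inv_one]⟩

omit hp [Finite G] in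
theorem MinSetup.nc_isPGroup : IsPGroup p (normalClosure (T : Set G)) := h.hVp.to_le h.nc_le

theorem MinSetup.le_S {Y : Subgroup G} [hY : Y.Normal] (hYV : Y ≤ normalClosure (T : Set G)) :
    Y ≤ S := by
  obtain ⟨m, -, hm⟩ := h.hS.exists_conj_le (h.nc_isPGroup.to_le hYV) le_top
  intro y hy
  have := hm (conj_mem_cj (g := m) (hY.conj_mem y hy m⁻¹))
  simpa [mul_assoc] using this

/-- The action on the elements of order `p` has the same kernel. -/
theorem MinSetup.centralizer_omega : centralizer (omega p T : Set G) = ker0 T := by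
  set C := ker0 T with hC
  set K := centralizer (omega p T : Set G)
  have hCK : C ≤ K := centralizer_le (SetLike.coe_subset_coe.2 (omega_le p T))
  refine h.normal_eq_ker0 (K := K) hCK ?_
  set P := S ⊓ K
  set Q := P ⊔ C
  have hQK : Q ≤ K := sup_le inf_le_right hCK
  have hpg : IsPGroup p (K ⧸ C.subgroupOf K) := by
    rintro ⟨⟨x, hx⟩⟩
    refine ⟨(orderOf x).factorization p, (QuotientGroup.eq_one_iff _).2 ?_⟩
    rw [mem_subgroupOf]
    show x ^ p ^ _ ∈ C
    set y := x ^ p ^ (orderOf x).factorization p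
    have hy : (orderOf y).Coprime p := by
      rw [orderOf_pow_of_dvd (pow_ne_zero _ hp.out.ne_zero) (Nat.ordProj_dvd _ _)]
      exact (Nat.coprime_ordCompl hp.out (orderOf_pos x).ne').symm
    refine mem_centralizer_iff.2 fun v hv => ?_
    refine (commute_of_coprime (hVn := normalClosure_normal)
      (fun a ha b hb => h.hVc a (h.nc_le ha) b (h.nc_le hb))
      h.nc_isPGroup hy (fun w hw hwp => ?_) hv).eq.symm
    exact ((Commute.symm (mem_centralizer_iff.1 hx w (h.mem_omega.2 ⟨hw, hwp⟩))).pow_left _)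
  obtain ⟨n, hn⟩ := IsPGroup.iff_card.1 hpg
  obtain ⟨hle, hp', hmax⟩ := h.hS.inf_normal K
  let P' : Sylow p K :=
    ⟨P.subgroupOf K, hp'.comap_subtype, fun {R'} hR' hle' => by
      apply map_injective K.subtype_injective
      rw [map_subgroupOf_eq_of_le hle]
      refine hmax _ (hR'.map _) ?_ (map_subtype_le _)
      rw [← map_subgroupOf_eq_of_le hle]
      exact map_mono hle'⟩
  have h1 : ¬p ∣ P.relIndex K := P'.not_dvd_index
  have h2 : Q.relIndex K ∣ P.relIndex K := relIndex_dvd_of_le_left K le_sup_left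
  have h3 : Q.relIndex K ∣ p ^ n := hn ▸ relIndex_dvd_of_le_left K (le_sup_right : C ≤ Q)
  obtain ⟨i, -, hi⟩ := (Nat.dvd_prime_pow hp.out).1 h3
  rcases i with - | i
  · rw [pow_zero] at hi
    exact relIndex_eq_one.1 hi
  · exact absurd ((hi ▸ dvd_pow_self p i.succ_ne_zero).trans h2) h1

variable {A : Subgroup G} (hA : IsMinMember S T A)

include hA

omit hp in
theorem IsMinMember.offNum_le {Y : Subgroup G} (hYS : Y ≤ S) (hYc : ∀ a ∈ Y, ∀ b ∈ Y, Commute a b)
    {B : Subgroup G} (hB : B ≤ A) :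
    offNum Y B ≤ offNum Y A ∧ (offNum Y A ≤ offNum Y B →
      H72.IsMaxAb S (B ⊔ (Y ⊓ centralizer (B : Set G)))) := by
  set Z := Y ⊓ centralizer (B : Set G) with hZ
  have hc : ∀ a ∈ B ⊔ Z, ∀ b ∈ B ⊔ Z, Commute a b := by
    have hle : B ⊔ Z ≤ centralizer ((B ⊔ Z : Subgroup G) : Set G) := by
      rw [H34.centralizer_sup_eq]
      refine sup_le (le_inf (fun a ha => ?_) ?_) (le_inf inf_le_right fun a ha => ?_)
      · exact mem_centralizer_iff.2 fun b hb => (hA.hA.2.1 b (hB hb) a (hB ha)).eq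
      · exact le_centralizer_iff.1 inf_le_right
      · exact mem_centralizer_iff.2 fun b hb => (hYc b hb.1 a ha.1).eq
    exact fun a ha b hb => (mem_centralizer_iff.1 (hle ha) b hb).symm
  have hS' : B ⊔ Z ≤ S := sup_le (hB.trans hA.hA.1) (inf_le_left.trans hYS)
  have hle1 : Nat.card ↥(B ⊔ Z) ≤ Nat.card A := hA.hA.2.2 _ hS' hc
  have hle2 : Nat.card ↥(B ⊓ Z) ≤ Nat.card ↥(Y ⊓ centralizer (A : Set G)) := by
    refine card_le_of_le fun x hx => ⟨hx.2.1, mem_centralizer_iff.2 fun a ha => ?_⟩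
    exact (hA.hA.2.1 a ha x (hB hx.1)).eq
  have hmul := H34.card_mul_card_le B Z
  refine ⟨hmul.trans (Nat.mul_le_mul hle1 hle2), fun hge => ⟨hS', hc, fun D hD hDc => ?_⟩⟩
  refine (hA.hA.2.2 D hD hDc).trans ?_
  exact Nat.le_of_mul_le_mul_right ((hge.trans hmul).trans (Nat.mul_le_mul_left _ hle2)) Nat.card_pos

omit hp in
theorem IsMinMember.strict {Y : Subgroup G} (hYV : Y ≤ normalClosure (T : Set G)) (hYS : Y ≤ S)
    {B : Subgroup G} (hB : B ≤ A) (hCB : A ⊓ ker0 T ≤ B) (hne : B ≠ A) (hBC : ¬B ≤ ker0 T) :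
    offNum Y B < offNum Y A := by
  by_contra hge
  have hB' := (hA.offNum_le h hYS
    (fun a ha b hb => h.hVc a (h.nc_le (hYV ha)) b (h.nc_le (hYV hb))) hB).2 (not_lt.1 hge)
  have hle := hA.least _ hB' fun hle => hBC (le_sup_left.trans hle)
  set q := QuotientGroup.mk' (ker0 T)
  have hmap : (B ⊔ (Y ⊓ centralizer (B : Set G))).map q = B.map q := by
    rw [Subgroup.map_sup, sup_eq_left, (Subgroup.map_eq_bot_iff _).2]
    · exact bot_le
    · rw [QuotientGroup.ker_mk']
      exact inf_le_left.trans (hYV.trans h.nc_le_ker0)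
  rw [hmap] at hle
  refine hne (le_antisymm hB fun a ha => ?_)
  have heq := eq_of_le_of_card_ge (map_mono (f := q) hB) hle
  have : q a ∈ B.map q := heq ▸ mem_map_of_mem q ha
  obtain ⟨b, hb, hab⟩ := this
  rw [QuotientGroup.mk'_eq_mk'] at hab
  obtain ⟨z, hz, rfl⟩ := hab
  exact B.mul_mem hb (hCB ⟨by simpa using A.mul_mem (A.inv_mem (hB hb)) ha, hz⟩)

/-- The member acts quadratically. -/
theorem IsMinMember.quadratic {Y : Subgroup G} [hYn : Y.Normal]
    (hYV : Y ≤ normalClosure (T : Set G)) (hYC : centralizer (Y : Set G) ≤ ker0 T) :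
    A ≤ centralizer ((⁅Y, A⁆ : Subgroup G) : Set G) := by
  have hYS : Y ≤ S := h.le_S hYV
  have hYc : ∀ a ∈ Y, ∀ b ∈ Y, Commute a b := fun a ha b hb =>
    h.hVc a (h.nc_le (hYV ha)) b (h.nc_le (hYV hb))
  haveI : IsMulCommutative Y := ⟨⟨fun a b => Subtype.ext (hYc a a.2 b b.2).eq⟩⟩
  have hAY : A ≤ normalizer (Y : Set G) := by rw [normalizer_eq_top_iff.2 hYn]; exact le_top
  have hab : ⁅A, A⁆ ≤ centralizer (Y : Set G) := by
    have : ⁅A, A⁆ = ⊥ := commutator_eq_bot_iff_le_centralizer.2 fun a ha =>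
      mem_centralizer_iff.2 fun b hb => (hA.hA.2.1 b hb a ha).eq
    rw [this]; exact bot_le
  obtain ⟨h1, h2⟩ :=
    H34.replacement (U := Y) hAY hab (fun B hB => (hA.offNum_le h hYS hYc hB).1) le_rfl
  set A₁ := A ⊓ centralizer ((⁅Y, A⁆ : Subgroup G) : Set G)
  have hWY : ⁅Y, A⁆ ≤ Y := commutator_le_left Y A
  have hCA₁ : A ⊓ ker0 T ≤ A₁ :=
    inf_le_inf_left _ (centralizer_le (SetLike.coe_subset_coe.2 (hWY.trans hYV)))
  by_cases hA₁C : A₁ ≤ ker0 T
  · exfalso
    have hfix : Y ⊓ centralizer (A₁ : Set G) = Y :=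
      inf_eq_left.2 (le_centralizer_iff.1
        (hA₁C.trans (centralizer_le (SetLike.coe_subset_coe.2 hYV))))
    rw [hfix] at h2
    have key : ⁅Y, A⁆ ≤ ⁅⁅Y, A⁆, A⁆ := commutator_le.2 fun v hv a ha => by
      have hv' : v ∈ ⁅Y, A⁆ ⊔ (Y ⊓ centralizer (A : Set G)) := h2 ▸ hv
      have hn : ⁅Y, A⁆ ≤ normalizer ((Y ⊓ centralizer (A : Set G) : Subgroup G) : Set G) := by
        refine le_trans (fun d hd => ?_) (centralizer_le_normalizer _)
        exact mem_centralizer_iff.2 fun e he => (hYc e he.1 d (hWY hd)).eq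
      rw [← SetLike.mem_coe, coe_mul_of_left_le_normalizer_right _ _ hn] at hv'
      obtain ⟨d, hd, e, he, rfl⟩ := hv'
      rw [H34.comm_mul_left, commutatorElement_eq_one_iff_mul_comm.2
        (mem_centralizer_iff.1 he.2 a ha).symm, mul_one, mul_inv_cancel, one_mul]
      exact commutator_mem_commutator hd ha
    have hbot : ⁅Y, A⁆ = ⊥ := by
      refine H34.eq_bot_of_le_commutator (p := p) (h.nc_isPGroup.to_le (hWY.trans hYV))
        (normalizer_commutator_ge_right Y A) (fun a ha => ?_) key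
      obtain ⟨k, hk⟩ := h.hS.2.1 ⟨a, hA.hA.1 ha⟩
      exact ⟨k, by rw [show a ^ p ^ k = 1 from congrArg Subtype.val hk]; exact one_mem _⟩
    exact hA.hAC ((le_centralizer_iff.1 (commutator_eq_bot_iff_le_centralizer.1 hbot)).trans hYC)
  · by_contra hne
    have hne' : A₁ ≠ A := fun he => hne (inf_eq_left.1 he)
    exact (hA.strict h hYV hYS inf_le_left hCA₁ hne' hA₁C).ne h1

/-- The commutator of an element of the member with `v` is fixed by the member. -/
theorem IsMinMember.fixes_commutator {Y : Subgroup G} [hYn : Y.Normal]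
    (hYV : Y ≤ normalClosure (T : Set G)) (hYC : centralizer (Y : Set G) ≤ ker0 T)
    {a b v : G} (ha : a ∈ A) (hb : b ∈ A) (hv : v ∈ Y) :
    b * (a * v * a⁻¹ * v⁻¹) = a * v * a⁻¹ * v⁻¹ * b := by
  refine (mem_centralizer_iff.1 (hA.quadratic h hYV hYC hb) _ ?_).symm
  rw [← commutatorElement_def, commutator_comm]
  exact commutator_mem_commutator ha hv

theorem IsMinMember.iterate {Y : Subgroup G} [hYn : Y.Normal]
    (hYV : Y ≤ normalClosure (T : Set G)) (hYC : centralizer (Y : Set G) ≤ ker0 T)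
    {a v : G} (ha : a ∈ A) (hv : v ∈ Y) (i : ℕ) :
    a ^ i * v * (a ^ i)⁻¹ = (a * v * a⁻¹ * v⁻¹) ^ i * v := by
  set w := a * v * a⁻¹ * v⁻¹ with hw
  have hc : Commute a w := hA.fixes_commutator h hYV hYC ha ha hv
  induction i with
  | zero => simp
  | succ i ih =>
    have e : a * v * a⁻¹ = w * v := by rw [hw, inv_mul_cancel_right]
    have e2 : a * w ^ i = w ^ i * a := hc.pow_right i
    calc a ^ (i + 1) * v * (a ^ (i + 1))⁻¹ = a * (a ^ i * v * (a ^ i)⁻¹) * a⁻¹ := by
          simp only [pow_succ', mul_inv_rev, mul_assoc]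
      _ = (a * w ^ i) * v * a⁻¹ := by rw [ih]; simp only [mul_assoc]
      _ = w ^ i * (a * v * a⁻¹) := by rw [e2]; simp only [mul_assoc]
      _ = w ^ (i + 1) * v := by rw [e, ← mul_assoc, pow_succ]

/-- The member is elementary abelian modulo the kernel. -/
theorem IsMinMember.pow_mem {a : G} (ha : a ∈ A) : a ^ p ∈ ker0 T := by
  rw [← h.centralizer_omega, mem_centralizer_iff]
  intro v hv
  have hYC := h.centralizer_omega.le
  have e := hA.iterate h (omega_le p T) hYC ha hv p
  rw [(h.mem_omega.1 ((omega p T).mul_mem ((omega_normal p T).conj_mem v hv a) ((omega p T).inv_mem hv))).2,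
    one_mul] at e
  exact (mul_inv_eq_iff_eq_mul.1 e).symm

/-- The whole group is trivial on `V₁` modulo the elements of order `p`. -/
theorem IsMinMember.comm_mem_omega (g : G) {v : G} (hv : v ∈ normalClosure (T : Set G)) :
    g * v * g⁻¹ * v⁻¹ ∈ omega p T := by
  set V₁ := normalClosure (T : Set G)
  have hV₁ : ∀ (x : G), ∀ u ∈ V₁, x * u * x⁻¹ ∈ V₁ := fun x u hu => normalClosure_normal.conj_mem u hu x
  let K : Subgroup G :=
    { carrier := {g | ∀ v ∈ V₁, g * v * g⁻¹ * v⁻¹ ∈ omega p T}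
      one_mem' := fun v _ => by simp
      mul_mem' := fun {a b} ha hb v hv => by
        have e : a * b * v * (a * b)⁻¹ * v⁻¹ =
            (a * (b * v * b⁻¹ * v⁻¹) * a⁻¹) * (a * v * a⁻¹ * v⁻¹) := by group
        rw [e]
        exact mul_mem ((omega_normal p T).conj_mem _ (hb v hv) a) (ha v hv)
      inv_mem' := fun {a} ha v hv => by
        have := inv_mem (ha _ (hV₁ a⁻¹ v hv))
        convert this using 1
        group }
  have hAK : A ≤ K := by
    intro a ha v hv
    have hYC : centralizer (V₁ : Set G) ≤ ker0 T := le_rfl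
    have e := hA.iterate h le_rfl hYC ha hv p
    refine h.mem_omega.2 ⟨V₁.mul_mem (hV₁ a v hv) (V₁.inv_mem hv), ?_⟩
    have h1 : a ^ p * v * (a ^ p)⁻¹ = v := by
      rw [← mem_centralizer_iff.1 (hA.pow_mem h ha) v hv, mul_inv_cancel_right]
    rw [h1] at e
    exact mul_eq_right.1 e.symm
  have hcj : ∀ x : G, cj x A ≤ K := by
    rintro x _ ⟨a, ha, rfl⟩ v hv
    have := (omega_normal p T).conj_mem _ (hAK ha _ (hV₁ x⁻¹ v hv)) x
    convert this using 1
    simp only [MulEquiv.coe_toMonoidHom, MulAut.conj_apply, inv_inv]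
    group
  have hCK : ker0 T ≤ K := fun c hc v hv => by
    rw [← mem_centralizer_iff.1 hc v hv, mul_inv_cancel_right, mul_inv_cancel]
    exact one_mem _
  obtain ⟨x, hx⟩ : ∃ x, x ∉ normalizer (T : Set G) :=
    not_forall.1 fun hall => h.hne (eq_top_iff.2 fun y _ => hall y)
  have htop : (⊤ : Subgroup G) ≤ K :=
    (h.gen hA.hA hA.hAC hx).ge.trans (sup_le (sup_le hAK (hcj x)) hCK)
  exact htop (mem_top g) v hv

end Cfsg.Agent.H35.CentralAutomizer
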